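import Mathlib
import Cfsg.Agent.Lib.Helper51.TIH.Defs

/-!
# TIH (S4118), package [EXT]
-/

set_option autoImplicit false

namespace Cfsg.Agent.Lib.Helper13.TIH

open Cfsg.Agent.Lib.Helper51.TIH

universe u

/-- **[EXT]** -/
theorem pkgExt : PkgExt.{u} := by
  intro G _ _ H O hO hOs hHs hcomm
  have hSn : (O ⊔ H).Normal := by
    constructor
    intro n hn g
    have h1 : g * n * g⁻¹ * n⁻¹ ∈ commutator G := by
      rw [commutator_def]
      exact Subgroup.commutator_mem_commutator (Subgroup.mem_top g) (Subgroup.mem_top n)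
    have h2 := (O ⊔ H).mul_mem (hcomm h1) hn
    simpa using h2
  have hSsolv : Group.IsSolvable ↥(O ⊔ H) := by
    let f : ↥O →* ↥(O ⊔ H) := Subgroup.inclusion le_sup_left
    let g : ↥(O ⊔ H) →* G ⧸ O := (QuotientGroup.mk' O).comp (O ⊔ H).subtype
    let φ : ↥H →* ↥g.range :=
      (g.comp (Subgroup.inclusion le_sup_right)).codRestrict g.range (fun h => ⟨_, rfl⟩)
    have hφ : Function.Surjective φ := by
      rintro ⟨y, s, rfl⟩
      have hs : (s : G) ∈ ((O ⊔ H : Subgroup G) : Set G) := s.2
      rw [Subgroup.normal_mul] at hs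
      obtain ⟨o, ho, h, hh, hoh⟩ := Set.mem_mul.mp hs
      refine ⟨⟨h, hh⟩, Subtype.ext ?_⟩
      change (QuotientGroup.mk' O) h = (QuotientGroup.mk' O) (s : G)
      rw [← hoh, map_mul]
      have : (QuotientGroup.mk' O) o = 1 := (QuotientGroup.eq_one_iff o).mpr ho
      rw [this, one_mul]
    have : Group.IsSolvable ↥g.range := Group.isSolvable_of_surjective hφ
    refine Group.isSolvable_of_ker_le_range f g.rangeRestrict ?_
    intro s hs
    rw [MonoidHom.mem_ker] at hs
    have hs' : (QuotientGroup.mk' O) (s : G) = 1 := congrArg Subtype.val hs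
    have hsO : (s : G) ∈ O := (QuotientGroup.eq_one_iff (s : G)).mp hs'
    exact ⟨⟨s, hsO⟩, Subtype.ext rfl⟩
  have : Group.IsSolvable (G ⧸ (O ⊔ H)) := by
    apply Group.isSolvable_of_comm
    intro a b
    induction a using QuotientGroup.induction_on with
    | H a =>
      induction b using QuotientGroup.induction_on with
      | H b =>
        rw [← QuotientGroup.mk_mul, ← QuotientGroup.mk_mul, QuotientGroup.eq]
        apply hcomm
        rw [commutator_def]
        have := Subgroup.commutator_mem_commutator (Subgroup.mem_top b⁻¹) (Subgroup.mem_top a⁻¹)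
        rw [commutatorElement_def] at this
        simpa [mul_assoc] using this
  exact Group.isSolvable_of_ker_le_range (O ⊔ H).subtype (QuotientGroup.mk' (O ⊔ H)) (by simp)

end Cfsg.Agent.Lib.Helper13.TIH
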