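import Mathlib
import Cfsg.Agent.Lib.Helper51.TIH.Defs

/-!
# TIH (S4118), package [NORMAL]
-/

set_option autoImplicit false

namespace Cfsg.Agent.Lib.Helper13.TIH

open Cfsg.Agent.Lib.Helper51.TIH

universe u

/-- **[NORMAL]** -/
theorem pkgNormal : PkgNormal.{u} := by
  intro G _ _ H O hO htop
  constructor
  intro x hx g
  have hg : g ∈ ((O ⊔ Subgroup.normalizer (H : Set G) : Subgroup G) : Set G) := by
    rw [htop]; trivial
  rw [Subgroup.normal_mul] at hg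
  obtain ⟨u, hu, n, hn, rfl⟩ := Set.mem_mul.mp hg
  have hx' : x ∈ ((O ⊔ H : Subgroup G) : Set G) := hx
  rw [Subgroup.normal_mul] at hx'
  obtain ⟨o, ho, h, hh, rfl⟩ := Set.mem_mul.mp hx'
  have h1 : n * o * n⁻¹ ∈ O ⊔ H := Subgroup.mem_sup_left (hO.conj_mem o ho n)
  have h2 : n * h * n⁻¹ ∈ O ⊔ H :=
    Subgroup.mem_sup_right ((Subgroup.mem_normalizer_iff.mp hn h).mp hh)
  have h3 : u ∈ O ⊔ H := Subgroup.mem_sup_left hu
  have e : u * n * (o * h) * (u * n)⁻¹ = u * ((n * o * n⁻¹) * (n * h * n⁻¹)) * u⁻¹ := by group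
  rw [e]
  exact (O ⊔ H).mul_mem ((O ⊔ H).mul_mem h3 ((O ⊔ H).mul_mem h1 h2)) ((O ⊔ H).inv_mem h3)

end Cfsg.Agent.Lib.Helper13.TIH
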