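import Mathlib
import Cfsg.Agent.Lib.Helper51.TIH.Defs

/-!
# TIH (S4118), package [SEC-B]: a fixed-point-free section gives a fixed-point-free action
-/

set_option autoImplicit false

namespace Cfsg.Agent.Lib.Helper13.TIH

open Cfsg.Agent.Lib.Helper51.TIH

universe u

section

variable {G : Type u} [Group G]

/-- conjugation by an element normalizing `X`, restricted to `X`. -/
def secbConj (X : Subgroup G) (h : G) (hh : h ∈ Subgroup.normalizer (X : Set G)) : ↥X →* ↥X :=
  ((MulAut.conj h).toMonoidHom.comp X.subtype).codRestrict X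
    (fun x => (Subgroup.mem_normalizer_iff.mp hh x).mp x.2)

theorem secbConj_coe (X : Subgroup G) (h : G) (hh : h ∈ Subgroup.normalizer (X : Set G))
    (x : ↥X) : ((secbConj X h hh x : ↥X) : G) = h * x * h⁻¹ := rfl

end

/-- **[SEC-B]** -/
theorem pkgSecB : PkgSecB.{u} := by
  intro G _ _ H hsec
  obtain ⟨X, Y, hYX, hHX, hHY, hXY, hne, hfpf⟩ := hsec
  have hN : (Y.subgroupOf X).Normal := by
    constructor
    intro n hn g
    exact (Subgroup.mem_normalizer_iff.mp (hXY g.2) n).mp hn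
  have hle : ∀ h : ↥H, Y.subgroupOf X ≤ (Y.subgroupOf X).comap (secbConj X h (hHX h.2)) := by
    intro h x hx
    exact (Subgroup.mem_normalizer_iff.mp (hHY h.2) x).mp hx
  let φ : ↥H → (↥X ⧸ Y.subgroupOf X) →* (↥X ⧸ Y.subgroupOf X) := fun h =>
    QuotientGroup.map (Y.subgroupOf X) (Y.subgroupOf X) (secbConj X h (hHX h.2)) (hle h)
  have hφmk : ∀ (h : ↥H) (x : ↥X), φ h (x : ↥X ⧸ Y.subgroupOf X) =
      ((secbConj X h (hHX h.2) x : ↥X) : ↥X ⧸ Y.subgroupOf X) := fun h x => rfl
  have hφmul : ∀ (h1 h2 : ↥H) (k : ↥X ⧸ Y.subgroupOf X), φ (h1 * h2) k = φ h1 (φ h2 k) := by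
    intro h1 h2 k
    induction k using QuotientGroup.induction_on with
    | H x =>
      rw [hφmk, hφmk, hφmk]
      congr 1
      apply Subtype.ext
      simp only [secbConj_coe, Subgroup.coe_mul, mul_inv_rev, mul_assoc]
  have hφone : ∀ (k : ↥X ⧸ Y.subgroupOf X), φ 1 k = k := by
    intro k
    induction k using QuotientGroup.induction_on with
    | H x =>
      rw [hφmk]
      congr 1
      apply Subtype.ext
      simp [secbConj_coe]
  let ρ : ↥H →* MulAut (↥X ⧸ Y.subgroupOf X) :=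
    { toFun := fun h => MonoidHom.toMulEquiv (φ h) (φ h⁻¹)
        (MonoidHom.ext fun k => by
          change φ h⁻¹ (φ h k) = k
          rw [← hφmul, inv_mul_cancel, hφone])
        (MonoidHom.ext fun k => by
          change φ h (φ h⁻¹ k) = k
          rw [← hφmul, mul_inv_cancel, hφone])
      map_one' := MulEquiv.ext fun k => hφone k
      map_mul' := fun h1 h2 => MulEquiv.ext fun k => hφmul h1 h2 k }
  have hρ : ∀ (h : ↥H) (k : ↥X ⧸ Y.subgroupOf X), ρ h k = φ h k := fun h k => rfl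
  refine ⟨↥X ⧸ Y.subgroupOf X, inferInstance, inferInstance, ρ, ?_, ?_⟩
  · -- nontrivial
    have : ∃ x ∈ X, x ∉ Y := by
      by_contra hcon
      push Not at hcon
      exact hne (le_antisymm hYX hcon)
    obtain ⟨x, hxX, hxY⟩ := this
    refine ⟨⟨((⟨x, hxX⟩ : ↥X) : ↥X ⧸ Y.subgroupOf X), 1, ?_⟩⟩
    intro h
    rw [QuotientGroup.eq_one_iff] at h
    exact hxY h
  · intro h hh k hk
    induction k using QuotientGroup.induction_on with
    | H x =>
      rw [hρ, hφmk, QuotientGroup.eq] at hk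
      have hk' : ((secbConj X h (hHX h.2) x : ↥X) : G)⁻¹ * (x : G) ∈ Y := hk
      rw [secbConj_coe] at hk'
      have hh' : (h : G) ≠ 1 := fun e => hh (Subtype.ext e)
      have h1 : (h : G) * (x : G)⁻¹ * (h : G)⁻¹ * ((x : G)⁻¹)⁻¹ ∈ Y := by
        have e : (h : G) * (x : G)⁻¹ * (h : G)⁻¹ * ((x : G)⁻¹)⁻¹ =
            ((h : G) * x * (h : G)⁻¹)⁻¹ * (x : G) := by group
        rw [e]; exact hk'
      have h2 := hfpf h h.2 hh' (x : G)⁻¹ (X.inv_mem x.2) h1
      rw [QuotientGroup.eq_one_iff]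
      exact (Y.inv_mem_iff).mp h2

end Cfsg.Agent.Lib.Helper13.TIH
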